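import Cfsg.Agent.Lib.Helper60.NseM11.Enum

set_option autoImplicit false

/-! # The numbers of elements of each order in `Cfsg.Spor.M11` (statement)

From the kernel checks of `Enum.lean`: the `110 * 72` products are exactly the elements of
`M11`, and every positive number of elements of a given order is one of
`1, 165, 440, 990, 1584, 1320, 1980, 1440`. -/

namespace Cfsg.Agent.Lib.Helper60.NseM11

open Cfsg Cfsg.Agent.Lib.Helper6.Golay Cfsg.Agent.Lib.Helper6.M24 Cfsg.Agent.Lib.Helper6.M12
  Cfsg.Agent.Lib.Helper86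

theorem valid_of_m11Tab' {t : List ℕ} (h : m11Tab t = true) : tabValid t = true := by
  unfold m11Tab m12Tab at h
  simp only [Bool.and_eq_true] at h
  exact h.1.1

theorem w12_get_mem {i : ℕ} (hi : i < 110) : W12.getD i [] ∈ W12 := by
  have hl : i < W12.length := by rw [w12_len]; exact hi
  rw [List.getD_eq_getElem _ _ hl]
  exact List.getElem_mem hl

theorem w34_get_mem {j : ℕ} (hj : j < 72) : W34.getD j [] ∈ W34 := by
  have hl : j < W34.length := by rw [w34_len]; exact hj
  rw [List.getD_eq_getElem _ _ hl]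
  exact List.getElem_mem hl

theorem w12_tab {i : ℕ} (hi : i < 110) : m11Tab (W12.getD i []) = true :=
  List.all_eq_true.1 w12_mem _ (w12_get_mem hi)

theorem w34_tab {j : ℕ} (hj : j < 72) : m11Tab (W34.getD j []) = true :=
  List.all_eq_true.1 w34_mem _ (w34_get_mem hj)

theorem w12_valid {i : ℕ} (hi : i < 110) : tabValid (W12.getD i []) = true :=
  valid_of_m11Tab' (w12_tab hi)

theorem w34_valid {j : ℕ} (hj : j < 72) : tabValid (W34.getD j []) = true :=
  valid_of_m11Tab' (w34_tab hj)

/-- the table of the product `W12[i] * W34[j]` -/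
def prodT (i j : ℕ) : List ℕ := tabMul (W12.getD i []) (W34.getD j [])

theorem prodT_valid {i j : ℕ} (hi : i < 110) (hj : j < 72) : tabValid (prodT i j) = true :=
  tabValid_tabMul (w12_valid hi) (w34_valid hj)

theorem tabPermD_prodT {i j : ℕ} (hi : i < 110) (hj : j < 72) :
    tabPermD (prodT i j) = tabPermD (W12.getD i []) * tabPermD (W34.getD j []) :=
  tabPermD_tabMul (w12_valid hi) (w34_valid hj)

theorem orderOf_prodT {i j : ℕ} (hi : i < 110) (hj : j < 72) :
    orderOf (tabPermD (prodT i j)) = ordL i j := by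
  have h1 : allTo 72 (fun j => okAt i j) = true := allTo_spec all_ok i hi
  have h : okAt i j = true := allTo_spec h1 j hj
  unfold okAt at h
  rw [mulP_pk (w12_valid hi)] at h
  exact orderOf_of_ordIsP (prodT_valid hi hj) h

/-- the element of `M11` with index `(i, j)` -/
noncomputable def elt (p : Fin 110 × Fin 72) : ↥Spor.M11 :=
  ⟨tabPermD (prodT p.1 p.2), by
    rw [tabPermD_prodT p.1.2 p.2.2]
    exact mul_mem (tabPermD_mem_M11 (w12_tab p.1.2)) (tabPermD_mem_M11 (w34_tab p.2.2))⟩

theorem orderOf_elt (p : Fin 110 × Fin 72) : orderOf (elt p) = ordL p.1 p.2 := by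
  rw [← Subgroup.orderOf_coe]
  exact orderOf_prodT p.1.2 p.2.2

theorem w34_fix' {j : ℕ} (hj : j < 72) :
    (W34.getD j []).getD 1 0 = 1 ∧ (W34.getD j []).getD 2 0 = 2 := by
  have := List.all_eq_true.1 w34_fix _ (w34_get_mem hj)
  simp only [Bool.and_eq_true] at this
  exact ⟨Nat.eq_of_beq_eq_true this.1, Nat.eq_of_beq_eq_true this.2⟩

theorem apply_pt {i j : ℕ} (hi : i < 110) (hj : j < 72) (k : ℕ) (hk : k < 24) :
    tabPermD (prodT i j) (pt k) = pt ((W12.getD i []).getD ((W34.getD j []).getD k 0) 0) := by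
  rw [tabPermD_eq (prodT_valid hi hj), tabPerm_pt _ _ hk]
  congr 1
  unfold prodT
  exact tabMul_getD _ _ (by rw [tabValid_length (w34_valid hj)]; exact hk)

theorem elt_injective : Function.Injective elt := by
  rintro ⟨⟨i, hi⟩, ⟨j, hj⟩⟩ ⟨⟨i', hi'⟩, ⟨j', hj'⟩⟩ h
  have hv : tabPermD (prodT i j) = tabPermD (prodT i' j') := congrArg Subtype.val h
  have key : ∀ k, k < 24 → (W34.getD j []).getD k 0 = k → (W34.getD j' []).getD k 0 = k →
      (W12.getD i []).getD k 0 = (W12.getD i' []).getD k 0 := by
    intro k hk e1 e2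
    have h1 : idx (tabPermD (prodT i j) (pt k)) = idx (tabPermD (prodT i' j') (pt k)) := by
      rw [hv]
    rw [apply_pt hi hj k hk, apply_pt hi' hj' k hk, e1, e2,
      idx_pt (getD_lt (w12_valid hi) hk), idx_pt (getD_lt (w12_valid hi') hk)] at h1
    exact h1
  have a1 := key 1 (by norm_num) (w34_fix' hj).1 (w34_fix' hj').1
  have a2 := key 2 (by norm_num) (w34_fix' hj).2 (w34_fix' hj').2
  have hii : i = i' := by
    have hl : i < (W12.map (fun w => 24 * w.getD 1 0 + w.getD 2 0)).length := by
      rw [List.length_map, w12_len]; exact hi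
    have hl' : i' < (W12.map (fun w => 24 * w.getD 1 0 + w.getD 2 0)).length := by
      rw [List.length_map, w12_len]; exact hi'
    apply (List.Nodup.getElem_inj_iff w12_codes (hi := hl) (hj := hl')).1
    rw [List.getElem_map, List.getElem_map]
    have e : W12.getD i [] = W12[i]'(by rw [w12_len]; exact hi) := List.getD_eq_getElem _ _ _
    have e' : W12.getD i' [] = W12[i']'(by rw [w12_len]; exact hi') :=
      List.getD_eq_getElem _ _ _
    rw [← e, ← e', a1, a2]
  subst hii
  have hjj : j = j' := by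
    rw [tabPermD_prodT hi hj, tabPermD_prodT hi hj'] at hv
    have hv2 := mul_left_cancel hv
    rw [tabPermD_eq (w34_valid hj), tabPermD_eq (w34_valid hj')] at hv2
    have e3 := tabPerm_inj _ _ hv2
    have hl : j < W34.length := by rw [w34_len]; exact hj
    have hl' : j' < W34.length := by rw [w34_len]; exact hj'
    rw [List.getD_eq_getElem _ _ hl, List.getD_eq_getElem _ _ hl'] at e3
    exact (List.Nodup.getElem_inj_iff w34_nodup).1 e3
  subst hjj
  rfl

theorem elt_bijective : Function.Bijective elt := by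
  apply Function.Injective.bijective_of_nat_card_le elt_injective
  rw [card_M11, Nat.card_prod, Nat.card_fin, Nat.card_fin]

theorem card_order (n : ℕ) : Nat.card {g : ↥Spor.M11 // orderOf g = n} =
    sumTo 110 (fun i => sumTo 72 (fun j => if ordL i j = n then 1 else 0)) := by
  have e : {p : Fin 110 × Fin 72 // ordL p.1 p.2 = n} ≃ {g : ↥Spor.M11 // orderOf g = n} :=
    Equiv.subtypeEquiv (Equiv.ofBijective elt elt_bijective) (fun p => by
      show ordL p.1 p.2 = n ↔ orderOf (elt p) = n
      rw [orderOf_elt])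
  rw [← Nat.card_congr e, Nat.card_eq_fintype_card, Fintype.card_subtype, Finset.card_filter,
    Fintype.sum_prod_type, sumTo_eq,
    ← Fin.sum_univ_eq_sum_range (fun i => sumTo 72 (fun j => if ordL i j = n then 1 else 0)) 110]
  apply Finset.sum_congr rfl
  intro i _
  rw [sumTo_eq, ← Fin.sum_univ_eq_sum_range (fun j => if ordL i j = n then 1 else 0) 72]

/-- **The numbers of elements of each order in `M11`.** -/
theorem nse_M11 (n : ℕ) (hpos : 0 < Nat.card {g : ↥Spor.M11 // orderOf g = n}) :
    Nat.card {g : ↥Spor.M11 // orderOf g = n} ∈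
      ({1, 165, 440, 990, 1584, 1320, 1980, 1440} : Set ℕ) := by
  obtain ⟨⟨g, hg⟩⟩ := (Nat.card_pos_iff.1 hpos).1
  obtain ⟨p, rfl⟩ := elt_bijective.2 g
  rw [orderOf_elt] at hg
  have hr1 : allTo 72 (fun j => decide (ordL p.1 j ∈ [1, 2, 3, 4, 5, 6, 8, 11])) = true :=
    allTo_spec ord_range p.1 p.1.2
  have hr : decide (ordL p.1 p.2 ∈ [1, 2, 3, 4, 5, 6, 8, 11]) = true := allTo_spec hr1 p.2 p.2.2
  rw [decide_eq_true_eq, hg] at hr
  have hc := counts n hr
  rw [card_order n]
  simp only [List.mem_cons, List.mem_nil_iff, or_false] at hc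
  simp only [Set.mem_insert_iff, Set.mem_singleton_iff]
  exact hc

end Cfsg.Agent.Lib.Helper60.NseM11
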