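import Mathlib
import Cfsg.Agent.Lib.Helper86.MathieuSmall
import Cfsg.Agent.Lib.Helper60.NseM11.Data

set_option autoImplicit false

/-! # The numbers of elements of each order in `Cfsg.Spor.M11`

`M11` is enumerated as the `110 * 72` products `W12[i] * W34[j]` of explicit tables; the order of
each product is checked against the table `ordRows`, and the numbers of elements of the orders
`1, 2, 3, 4, 5, 6, 8, 11` come out as `1, 165, 440, 990, 1584, 1320, 1980, 1440`. -/

namespace Cfsg.Agent.Lib.Helper60.NseM11

open Cfsg Cfsg.Agent.Lib.Helper6.Golay Cfsg.Agent.Lib.Helper6.M24 Cfsg.Agent.Lib.Helper6.M12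
  Cfsg.Agent.Lib.Helper86

/-- the table of the identity -/
def idT : List ℕ := List.range 24

/-- bounded universal quantifier -/
def allTo : ℕ → (ℕ → Bool) → Bool
  | 0, _ => true
  | m + 1, f => f m && allTo m f

theorem allTo_spec : ∀ {m : ℕ} {f : ℕ → Bool}, allTo m f = true → ∀ i, i < m → f i = true
  | 0, _, _, i, hi => absurd hi (Nat.not_lt_zero i)
  | m + 1, f, h, i, hi => by
    simp only [allTo, Bool.and_eq_true] at h
    rcases Nat.lt_succ_iff_lt_or_eq.1 hi with h1 | h1
    · exact allTo_spec h.2 i h1
    · rw [h1]; exact h.1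

/-- bounded sum -/
def sumTo : ℕ → (ℕ → ℕ) → ℕ
  | 0, _ => 0
  | m + 1, f => sumTo m f + f m

theorem sumTo_eq (m : ℕ) (f : ℕ → ℕ) : sumTo m f = ∑ i ∈ Finset.range m, f i := by
  induction m with
  | zero => rfl
  | succ m ih => rw [sumTo, ih, Finset.sum_range_succ]

/-! ### products of valid tables -/

theorem tabValid_tabMul {a b : List ℕ} (ha : tabValid a = true) (hb : tabValid b = true) :
    tabValid (tabMul a b) = true := by
  have hlen : (tabMul a b).length = 24 := by
    unfold tabMul; rw [List.length_map, tabValid_length hb]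
  have hlt : ∀ x ∈ tabMul a b, x < 24 := by
    intro x hx
    unfold tabMul at hx
    rw [List.mem_map] at hx
    obtain ⟨j, hj, rfl⟩ := hx
    exact getD_lt ha (tabValid_lt hb j hj)
  have hmem : ∀ k < 24, k ∈ tabMul a b := by
    intro k hk
    have h1 := tabValid_mem ha k hk
    obtain ⟨m, hm, rfl⟩ := List.mem_iff_getElem.1 h1
    have hm24 : m < 24 := by rw [tabValid_length ha] at hm; exact hm
    have h2 := tabValid_mem hb m hm24
    unfold tabMul
    rw [List.mem_map]
    exact ⟨m, h2, by rw [List.getD_eq_getElem _ _ hm]⟩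
  have hor : orMask (tabMul a b) = 16777215 := by
    apply Nat.eq_of_testBit_eq
    intro k
    by_cases hk : k < 24
    · rw [(testBit_orMask _ k).2 (hmem k hk),
        show (16777215 : ℕ) = 2 ^ 24 - 1 by norm_num, Nat.testBit_two_pow_sub_one]
      simp [hk]
    · have h1 : (orMask (tabMul a b)).testBit k = false := by
        rw [Bool.eq_false_iff]
        intro h
        exact hk (hlt k ((testBit_orMask _ k).1 h))
      rw [h1, show (16777215 : ℕ) = 2 ^ 24 - 1 by norm_num, Nat.testBit_two_pow_sub_one]
      simp [hk]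
  unfold tabValid
  simp only [Bool.and_eq_true, List.all_eq_true]
  refine ⟨?_, ?_, ?_⟩
  · rw [hlen]; rfl
  · rw [hor]; rfl
  · intro x hx
    have := hlt x hx
    show Nat.ble (x + 1) 24 = true
    exact Nat.ble_eq_true_of_le this

theorem idT_valid : tabValid idT = true := by decide +kernel

theorem tabPermD_idT : tabPermD idT = 1 := tabPermD_one

theorem eq_idT_of_tabPermD {p : List ℕ} (hp : tabValid p = true) (h : tabPermD p = 1) :
    p = idT := by
  rw [← tabPermD_idT, tabPermD_eq hp, tabPermD_eq idT_valid] at h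
  exact tabPerm_inj hp idT_valid h

theorem tabPermD_tabMul {a b : List ℕ} (ha : tabValid a = true) (hb : tabValid b = true) :
    tabPermD (tabMul a b) = tabPermD a * tabPermD b := by
  have hc := tabValid_tabMul ha hb
  rw [tabPermD_eq hc, tabPermD_eq ha, tabPermD_eq hb, tabPerm_mul ha hb hc]

/-! ### a fast composition -/

/-- a table packed in base `32` -/
def pk : List ℕ → ℕ
  | [] => 0
  | x :: xs => x + 32 * pk xs

/-- the entry `j` of a packed table -/
def getP (A j : ℕ) : ℕ := A / 32 ^ j % 32

/-- composition with a packed table -/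
def mulP (A : ℕ) (b : List ℕ) : List ℕ := b.map (fun j => getP A j)

theorem getP_pk : ∀ (a : List ℕ), (∀ x ∈ a, x < 32) → ∀ j, getP (pk a) j = a.getD j 0
  | [], _, j => by simp [getP, pk]
  | x :: xs, h, 0 => by
    have hx : x < 32 := h x (List.mem_cons_self ..)
    show (x + 32 * pk xs) / 32 ^ 0 % 32 = x
    rw [pow_zero, Nat.div_one, Nat.add_mul_mod_self_left, Nat.mod_eq_of_lt hx]
  | x :: xs, h, j + 1 => by
    have hx : x < 32 := h x (List.mem_cons_self ..)
    have ih := getP_pk xs (fun y hy => h y (List.mem_cons_of_mem _ hy)) j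
    show (x + 32 * pk xs) / 32 ^ (j + 1) % 32 = (x :: xs).getD (j + 1) 0
    rw [List.getD_cons_succ, ← ih, pow_succ', ← Nat.div_div_eq_div_mul,
      Nat.add_mul_div_left _ _ (by norm_num : 0 < 32), Nat.div_eq_of_lt hx, Nat.zero_add]
    rfl

theorem mulP_pk {a : List ℕ} (ha : tabValid a = true) (b : List ℕ) :
    mulP (pk a) b = tabMul a b := by
  unfold mulP tabMul
  apply List.map_congr_left
  intro j _
  exact getP_pk a (fun x hx => lt_trans (tabValid_lt ha x hx) (by norm_num)) j

/-- the list is `k, k + 1, …` -/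
def isIdFrom : ℕ → List ℕ → Bool
  | _, [] => true
  | k, x :: xs => Nat.beq x k && isIdFrom (k + 1) xs

/-- the table is the identity -/
def isId (p : List ℕ) : Bool := isIdFrom 0 p

theorem isIdFrom_spec : ∀ (p : List ℕ) (k : ℕ), isIdFrom k p = true →
    p = List.range' k p.length
  | [], k, _ => by simp
  | x :: xs, k, h => by
    simp only [isIdFrom, Bool.and_eq_true] at h
    have hx : x = k := Nat.eq_of_beq_eq_true h.1
    have := isIdFrom_spec xs (k + 1) h.2
    rw [List.length_cons, List.range'_succ, hx]
    exact congrArg (List.cons k) this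

theorem isId_spec {p : List ℕ} (hp : tabValid p = true) (h : isId p = true) : p = idT := by
  have := isIdFrom_spec p 0 h
  rw [tabValid_length hp] at this
  rw [this, idT, List.range_eq_range']

theorem isId_idT : isId idT = true := by decide +kernel

/-- `ordGoP A m p`: with `A` the packed table of `t` and `p = t ^ j`, none of
`t ^ j, …, t ^ (j + m - 1)` is the identity and `t ^ (j + m)` is. -/
def ordGoP (A : ℕ) : ℕ → List ℕ → Bool
  | 0, p => isId p
  | m + 1, p => (!isId p) && ordGoP A m (mulP A p)

/-- the table `t` has order `n` -/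
def ordIsP (t : List ℕ) (n : ℕ) : Bool := Nat.ble 1 n && ordGoP (pk t) (n - 1) t

theorem ordGoP_spec (t : List ℕ) (ht : tabValid t = true) :
    ∀ (m : ℕ) (p : List ℕ) (j : ℕ), tabValid p = true → tabPermD p = tabPermD t ^ j →
      ordGoP (pk t) m p = true →
      (∀ i, i < m → tabPermD t ^ (j + i) ≠ 1) ∧ tabPermD t ^ (j + m) = 1 := by
  intro m
  induction m with
  | zero =>
    intro p j hp e h
    simp only [ordGoP] at h
    have hpid := isId_spec hp h
    refine ⟨fun i hi => absurd hi (Nat.not_lt_zero i), ?_⟩
    rw [Nat.add_zero, ← e, hpid]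
    exact tabPermD_idT
  | succ m ih =>
    intro p j hp e h
    simp only [ordGoP, Bool.and_eq_true, Bool.not_eq_true'] at h
    obtain ⟨hne, hrec⟩ := h
    rw [mulP_pk ht] at hrec
    have hc := tabValid_tabMul ht hp
    have step : tabPermD (tabMul t p) = tabPermD t ^ (j + 1) := by
      rw [tabPermD_tabMul ht hp, e, pow_succ']
    obtain ⟨h1, h2⟩ := ih (tabMul t p) (j + 1) hc step hrec
    refine ⟨fun i hi => ?_, ?_⟩
    · rcases Nat.eq_zero_or_pos i with h0 | h0
      · subst h0
        intro hone
        rw [Nat.add_zero, ← e] at hone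
        have := eq_idT_of_tabPermD hp hone
        rw [this, isId_idT] at hne
        exact Bool.noConfusion hne
      · have := h1 (i - 1) (by omega)
        rwa [show j + 1 + (i - 1) = j + i by omega] at this
    · rwa [show j + 1 + m = j + (m + 1) by omega] at h2

theorem orderOf_of_ordIsP {t : List ℕ} {n : ℕ} (ht : tabValid t = true)
    (h : ordIsP t n = true) : orderOf (tabPermD t) = n := by
  simp only [ordIsP, Bool.and_eq_true] at h
  obtain ⟨hn, hgo⟩ := h
  have hn1 : 1 ≤ n := Nat.le_of_ble_eq_true hn
  obtain ⟨h1, h2⟩ := ordGoP_spec t ht (n - 1) t 1 ht (pow_one _).symm hgo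
  rw [orderOf_eq_iff (by omega)]
  refine ⟨by rwa [show 1 + (n - 1) = n by omega] at h2, fun m hm hm0 => ?_⟩
  have := h1 (m - 1) (by omega)
  rwa [show 1 + (m - 1) = m by omega] at this

/-- the recorded order of the product `W12[i] * W34[j]` -/
def ordL (i j : ℕ) : ℕ := (ordRows.getD i 0 / 16 ^ j) % 16

/-- the product `W12[i] * W34[j]` has the recorded order -/
def okAt (i j : ℕ) : Bool :=
  ordIsP (mulP (pk (W12.getD i [])) (W34.getD j [])) (ordL i j)

/-! ### the kernel checks -/

theorem w12_len : W12.length = 110 := by decide +kernel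

theorem w34_len : W34.length = 72 := by decide +kernel

theorem w12_mem : W12.all m11Tab = true := by decide +kernel

theorem w34_mem : W34.all m11Tab = true := by decide +kernel

theorem w34_fix :
    W34.all (fun v => Nat.beq (v.getD 1 0) 1 && Nat.beq (v.getD 2 0) 2) = true := by
  decide +kernel

theorem w34_nodup : W34.Nodup := by decide +kernel

theorem w12_codes : (W12.map (fun w => 24 * w.getD 1 0 + w.getD 2 0)).Nodup := by
  decide +kernel

theorem ord_range : allTo 110 (fun i => allTo 72 (fun j =>
    decide (ordL i j ∈ [1, 2, 3, 4, 5, 6, 8, 11]))) = true := by decide +kernel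

theorem counts : ∀ n ∈ [1, 2, 3, 4, 5, 6, 8, 11],
    sumTo 110 (fun i => sumTo 72 (fun j => if ordL i j = n then 1 else 0)) ∈
      [1, 165, 440, 990, 1584, 1320, 1980, 1440] := by decide +kernel

theorem all_ok : allTo 110 (fun i => allTo 72 (fun j => okAt i j)) = true := by decide +kernel

end Cfsg.Agent.Lib.Helper60.NseM11
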